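import Groth.Agent.Flat2F.WeightLoc

/-!
Weightings are stable under arbitrary base change.
-/

set_option autoImplicit false
universe u

namespace Groth.Agent.Old.H13.WeightBC

open AlgebraicGeometry CategoryTheory Limits Topology
open Groth.Agent.Flat2F Groth.Agent.Flat2F.FibreIntegral Groth.Agent.Flat2F.GeomPts
  Groth.Agent.Flat2F.ResSplit Groth.Agent.Flat2F.Split Groth.Agent.Flat2F.WeightLoc

variable {X Y : Scheme.{u}}

/-- Decomposition of the fibre integral over an open `U` in terms of opens `U i`. -/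
theorem fibreIntegral_eq_sum_open (f : X ⟶ Y) [LocallyQuasiFinite f] (w : X → ℤ) (U : X.Opens)
    {ι : Type*} [Finite ι] (V : ι → X.Opens) [∀ i, IsFinite ((V i).ι ≫ f)] (y : Y)
    (h1 : ∀ x, f x = y → (x ∈ U ↔ ∃ i, x ∈ V i))
    (h2 : ∀ x i j, f x = y → x ∈ V i → x ∈ V j → i = j) :
    MoreMor.fibreIntegral (U.ι ≫ f) (fun x => w (U.ι x)) y =
      ∑ᶠ i, MoreMor.fibreIntegral ((V i).ι ≫ f) (fun x => w ((V i).ι x)) y := by
  obtain ⟨K, _, _, ω, rfl⟩ := exists_geometric_point Y y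
  have h0 := fibreIntegral_ι f U w ω
  refine h0.trans ?_
  have h3 : L f ω U = ⋃ i, L f ω (V i) := by
    ext s
    simp only [Set.mem_iUnion]
    constructor
    · intro hs
      obtain ⟨i, hi⟩ := (h1 _ (apply_pt_of_mem_L hs)).mp hs.2
      exact ⟨i, hs.1, hi⟩
    · rintro ⟨i, hi⟩
      exact ⟨hi.1, (h1 _ (apply_pt_of_mem_L hi)).mpr ⟨i, hi.2⟩⟩
  rw [h3, finsum_mem_iUnion]
  · refine finsum_congr fun i => ?_
    exact (fibreIntegral_ι f (V i) w ω).symm
  · intro i j hij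
    rw [Function.onFun, Set.disjoint_left]
    intro s hs hs'
    exact hij (h2 _ i j (apply_pt_of_mem_L hs) hs.2 hs'.2)
  · intro i
    exact finite_L f (V i) ω

/-- If `V ≤ U` are opens which are finite over the base then `V` is closed in `U`. -/
lemma isClosed_preimage_of_le (f : X ⟶ Y) (U V : X.Opens) [IsFinite (U.ι ≫ f)] [IsFinite (V.ι ≫ f)]
    (h : V ≤ U) : IsClosed (U.ι ⁻¹' (V : Set X)) := by
  have h1 : IsFinite (X.homOfLE h ≫ U.ι ≫ f) := by
    rw [← Category.assoc, Scheme.homOfLE_ι]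
    infer_instance
  have h2 : IsFinite (X.homOfLE h) := .of_comp _ (U.ι ≫ f)
  have h3 : IsClosed (Set.range (X.homOfLE h)) := (X.homOfLE h).isClosedMap.isClosed_range
  convert h3 using 1
  ext x
  constructor
  · intro hx
    have hx' : U.ι x ∈ Set.range V.ι := by rw [Scheme.Opens.range_ι]; exact hx
    obtain ⟨z, hz⟩ := hx'
    refine ⟨z, ?_⟩
    apply U.ι.isOpenEmbedding.injective
    rw [← Scheme.Hom.comp_apply, Scheme.homOfLE_ι, hz]
  · rintro ⟨z, rfl⟩
    change U.ι (X.homOfLE h z) ∈ V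
    rw [← Scheme.Hom.comp_apply, Scheme.homOfLE_ι]
    exact ι_apply_mem V z

/-- The set of points in the base over which an open `U` (finite over the base) meets a given closed
subset of `U` is closed. -/
lemma isClosed_image_of_isFinite (f : X ⟶ Y) (U : X.Opens) [IsFinite (U.ι ≫ f)] (Z : Set X)
    (hZ : IsClosed (U.ι ⁻¹' Z)) : IsClosed (f '' ((U : Set X) ∩ Z)) := by
  have h1 : f '' ((U : Set X) ∩ Z) = (U.ι ≫ f) '' (U.ι ⁻¹' Z) := by
    ext z
    constructor
    · rintro ⟨x, ⟨hi, hj⟩, rfl⟩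
      exact ⟨⟨x, hi⟩, hj, rfl⟩
    · rintro ⟨x, hx, rfl⟩
      exact ⟨U.ι x, ⟨ι_apply_mem _ _, hx⟩, rfl⟩
  rw [h1]
  exact (U.ι ≫ f).isClosedMap _ hZ

/-- Local decomposition, when the pieces are contained in `U`. -/
theorem eventually_eq_sum_of_le (f : X ⟶ Y) [LocallyQuasiFinite f] (w : X → ℤ) (U : X.Opens)
    [IsFinite (U.ι ≫ f)]
    {ι : Type*} [Finite ι] (V : ι → X.Opens) [∀ i, IsFinite ((V i).ι ≫ f)] (hVU : ∀ i, V i ≤ U) (y : Y)
    (h1 : ∀ x, f x = y → x ∈ U → ∃ i, x ∈ V i)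
    (h2 : ∀ x i j, f x = y → x ∈ V i → x ∈ V j → i = j) :
    ∀ᶠ y' in 𝓝 y, MoreMor.fibreIntegral (U.ι ≫ f) (fun x => w (U.ι x)) y' =
      ∑ᶠ i, MoreMor.fibreIntegral ((V i).ι ≫ f) (fun x => w ((V i).ι x)) y' := by
  have hD : IsClosed (f '' ((U : Set X) ∩ (⋃ i, (V i : Set X))ᶜ)) := by
    apply isClosed_image_of_isFinite
    rw [Set.preimage_compl]
    exact (IsOpen.preimage U.ι.continuous (isOpen_iUnion fun i => (V i).2)).isClosed_compl
  have hyD : y ∉ f '' ((U : Set X) ∩ (⋃ i, (V i : Set X))ᶜ) := by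
    rintro ⟨x, ⟨hx, hx'⟩, hxy⟩
    obtain ⟨i, hi⟩ := h1 x hxy hx
    exact hx' (Set.mem_iUnion.mpr ⟨i, hi⟩)
  have hE : ∀ i j, IsClosed (f '' ((U : Set X) ∩ ((V i : Set X) ∩ (V j : Set X)))) := by
    intro i j
    apply isClosed_image_of_isFinite
    rw [Set.preimage_inter]
    exact (isClosed_preimage_of_le f U (V i) (hVU i)).inter (isClosed_preimage_of_le f U (V j) (hVU j))
  have hyE : ∀ i j, i ≠ j → y ∉ f '' ((U : Set X) ∩ ((V i : Set X) ∩ (V j : Set X))) := by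
    rintro i j hij ⟨x, ⟨-, hi, hj⟩, hxy⟩
    exact hij (h2 x i j hxy hi hj)
  have e1 : ∀ᶠ y' in 𝓝 y, y' ∉ f '' ((U : Set X) ∩ (⋃ i, (V i : Set X))ᶜ) :=
    hD.isOpen_compl.mem_nhds hyD
  have e2 : ∀ᶠ y' in 𝓝 y, ∀ i j, i ≠ j → y' ∉ f '' ((U : Set X) ∩ ((V i : Set X) ∩ (V j : Set X))) := by
    rw [Filter.eventually_all]
    intro i
    rw [Filter.eventually_all]
    intro j
    by_cases hij : i = j
    · exact Filter.Eventually.of_forall fun _ h => (h hij).elim
    · exact ((hE i j).isOpen_compl.eventually_mem (hyE i j hij)).mono fun y' hy' _ => hy'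
  filter_upwards [e1, e2] with y' h1' h2'
  refine fibreIntegral_eq_sum_open f w U V y' ?_ ?_
  · intro x hx
    constructor
    · intro hxU
      by_contra hne
      exact h1' ⟨x, ⟨hxU, fun hx' => hne (by simpa using hx')⟩, hx⟩
    · rintro ⟨i, hi⟩
      exact hVU i hi
  · intro x i j hx hi hj
    by_contra hij
    exact h2' i j hij ⟨x, ⟨hVU i hi, hi, hj⟩, hx⟩

/-- Base change for the fibre integral over an open. -/
lemma fibreIntegral_preimage {X' Y' : Scheme.{u}} {f : X ⟶ Y} {f' : X' ⟶ Y'} {h : X' ⟶ X}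
    {g : Y' ⟶ Y} (hc : IsPullback h f' f g) [LocallyQuasiFinite f] (w : X → ℤ) (U : X.Opens) (y' : Y') :
    MoreMor.fibreIntegral ((h ⁻¹ᵁ U).ι ≫ f') (fun x => w (h ((h ⁻¹ᵁ U).ι x))) y' =
      MoreMor.fibreIntegral (U.ι ≫ f) (fun x => w (U.ι x)) (g y') := by
  have hc2 := (isPullback_morphismRestrict h U).paste_vert hc
  rw [← fibreIntegral_baseChange _ _ _ _ hc2 (fun u => w (U.ι u)) y']
  congr 1
  ext u
  simp only [Function.comp_apply]
  rw [← Scheme.Hom.comp_apply, ← Scheme.Hom.comp_apply, morphismRestrict_ι]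

/-- Local decomposition. -/
theorem eventually_eq_sum (f : X ⟶ Y) [LocallyQuasiFinite f] (w : X → ℤ) (U : X.Opens)
    [IsFinite (U.ι ≫ f)]
    {ι : Type*} [Finite ι] (V : ι → X.Opens) [∀ i, IsFinite ((V i).ι ≫ f)] (y : Y)
    (h1 : ∀ x, f x = y → (x ∈ U ↔ ∃ i, x ∈ V i))
    (h2 : ∀ x i j, f x = y → x ∈ V i → x ∈ V j → i = j) :
    ∀ᶠ y' in 𝓝 y, MoreMor.fibreIntegral (U.ι ≫ f) (fun x => w (U.ι x)) y' =
      ∑ᶠ i, MoreMor.fibreIntegral ((V i).ι ≫ f) (fun x => w ((V i).ι x)) y' := by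
  have hD : ∀ i, IsClosed (f '' ((V i : Set X) ∩ (U : Set X)ᶜ)) := by
    intro i
    apply isClosed_image_of_isFinite
    rw [Set.preimage_compl]
    exact (IsOpen.preimage (V i).ι.continuous U.2).isClosed_compl
  have hyD : ∀ i, y ∉ f '' ((V i : Set X) ∩ (U : Set X)ᶜ) := by
    rintro i ⟨x, ⟨hx, hx'⟩, hxy⟩
    exact hx' ((h1 x hxy).mpr ⟨i, hx⟩)
  let N : Y.Opens := ⟨⋂ i, (f '' ((V i : Set X) ∩ (U : Set X)ᶜ))ᶜ,
    isOpen_iInter_of_finite fun i => (hD i).isOpen_compl⟩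
  have hyN : y ∈ N := Set.mem_iInter.mpr hyD
  have hN : ∀ x, f x ∈ N → ∀ i, x ∈ V i → x ∈ U := by
    intro x hx i hi
    by_contra hU
    exact Set.mem_iInter.mp hx i ⟨x, ⟨hi, hU⟩, rfl⟩
  have hc := (isPullback_morphismRestrict f N).flip
  let r := (f ⁻¹ᵁ N).ι
  have hcr : IsPullback r (f ∣_ N) f N.ι := (isPullback_morphismRestrict f N).flip
  have hUf : IsFinite ((r ⁻¹ᵁ U).ι ≫ f ∣_ N) := isFinite_baseChange_ι hcr U
  have hVf : ∀ i, IsFinite ((r ⁻¹ᵁ (V i)).ι ≫ f ∣_ N) := fun i => isFinite_baseChange_ι hcr (V i)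
  have hr : ∀ z, f (r z) = N.ι ((f ∣_ N) z) := by
    intro z
    rw [← Scheme.Hom.comp_apply, hcr.w, Scheme.Hom.comp_apply]
  obtain ⟨z₀, hz₀⟩ : ∃ z₀ : (N : Scheme.{u}), N.ι z₀ = y := ⟨⟨y, hyN⟩, rfl⟩
  have key := eventually_eq_sum_of_le (f ∣_ N) (fun z => w (r z)) (r ⁻¹ᵁ U) (fun i => r ⁻¹ᵁ (V i)) ?_
    z₀ ?_ ?_
  · have h3 : ∀ z : (N : Scheme.{u}),
        (MoreMor.fibreIntegral ((r ⁻¹ᵁ U).ι ≫ f ∣_ N) (fun x => w (r ((r ⁻¹ᵁ U).ι x))) z =
          ∑ᶠ i, MoreMor.fibreIntegral ((r ⁻¹ᵁ (V i)).ι ≫ f ∣_ N)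
            (fun x => w (r ((r ⁻¹ᵁ (V i)).ι x))) z) →
        (MoreMor.fibreIntegral (U.ι ≫ f) (fun x => w (U.ι x)) (N.ι z) =
          ∑ᶠ i, MoreMor.fibreIntegral ((V i).ι ≫ f) (fun x => w ((V i).ι x)) (N.ι z)) := by
      intro z hz
      rw [fibreIntegral_preimage hcr w U z] at hz
      rw [hz]
      refine finsum_congr fun i => ?_
      exact fibreIntegral_preimage hcr w (V i) z
    have h4 := key.mono h3
    have h5 := N.ι.isOpenEmbedding.map_nhds_eq z₀
    rw [hz₀] at h5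
    rw [← h5, Filter.eventually_map]
    exact h4
  · intro i z hz
    refine hN (r z) ?_ i hz
    rw [hr]
    exact ι_apply_mem N _
  · intro z hz hzU
    refine (h1 (r z) ?_).mp hzU
    rw [hr, hz, hz₀]
  · intro z i j hz hi hj
    refine h2 (r z) i j ?_ hi hj
    rw [hr, hz, hz₀]

/-- Local constancy near `y'` after base change when the relevant points are split. -/
theorem eventually_eq_of_split {X' Y' : Scheme.{u}} {f : X ⟶ Y} {f' : X' ⟶ Y'} {h : X' ⟶ X}
    {g : Y' ⟶ Y} (hc : IsPullback h f' f g) [LocallyQuasiFinite f] {w : X → ℤ}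
    (hw : MoreMor.IsWeighting f w) (U : X'.Opens) [IsFinite (U.ι ≫ f')] (y' : Y')
    (hs : ∀ x' ∈ U, f' x' = y' → Split f (h x')) :
    ∀ᶠ z in 𝓝 y', MoreMor.fibreIntegral (U.ι ≫ f') (fun x => w (h (U.ι x))) z =
      MoreMor.fibreIntegral (U.ι ≫ f') (fun x => w (h (U.ι x))) y' := by
  have : LocallyQuasiFinite f' := MorphismProperty.of_isPullback hc ‹_›
  have hcw : ∀ x', f (h x') = g (f' x') := by
    intro z
    rw [← Scheme.Hom.comp_apply, hc.w, Scheme.Hom.comp_apply]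
  -- the finite set of points of `X`
  let ι : Type u := {x : X // ∃ x' ∈ U, f' x' = y' ∧ h x' = x}
  have hfin : Finite ι := by
    have h1 : ((U.ι ≫ f') ⁻¹' {y'}).Finite := (U.ι ≫ f').finite_preimage_singleton _
    refine ((h1.image fun x => h (U.ι x)).subset ?_ : {x : X | ∃ x' ∈ U, f' x' = y' ∧ h x' = x}.Finite)
    rintro _ ⟨x', hx', hxy, rfl⟩
    exact ⟨⟨x', hx'⟩, hxy, rfl⟩
  have hfi : ∀ i : ι, f i.1 = g y' := by
    rintro ⟨_, x', hx', hxy, rfl⟩
    rw [hcw, hxy]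
  have hsi : ∀ i : ι, Split f i.1 := by
    rintro ⟨_, x', hx', hxy, rfl⟩
    exact hs x' hx' hxy
  choose V hV hVf hVu using hsi
  have hVf' : ∀ i, IsFinite ((h ⁻¹ᵁ (V i)).ι ≫ f') := fun i => isFinite_baseChange_ι hc (V i)
  have huniq : ∀ (i : ι) (x : X), x ∈ V i → f x = g y' → x = i.1 := by
    intro i x hx hxy
    have h1 := hVu i
    rw [hfi i] at h1
    exact h1.eq hx (hV i) hxy (hfi i)
  have hVu' : ∀ i, Uniq f' y' (h ⁻¹ᵁ (V i)) := by
    intro i
    refine Uniq.baseChange hc ?_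
    have h1 := hVu i
    rwa [hfi i] at h1
  have key := eventually_eq_sum f' (fun x => w (h x)) U (fun i => h ⁻¹ᵁ (V i)) y' ?_ ?_
  · have hloc : ∀ i, IsLocallyConstant (MoreMor.fibreIntegral ((V i).ι ≫ f) (fun u => w ((V i).ι u))) :=
      fun i => isLocallyConstant_of_isPullback (IsPullback.id_horiz f) hw (V i)
    have hloc' : ∀ᶠ z in 𝓝 y', ∀ i, MoreMor.fibreIntegral ((V i).ι ≫ f) (fun u => w ((V i).ι u)) (g z) =
        MoreMor.fibreIntegral ((V i).ι ≫ f) (fun u => w ((V i).ι u)) (g y') := by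
      rw [Filter.eventually_all]
      intro i
      have h1 := ((hloc i).comp_continuous g.continuous)
      exact ((h1.isOpen_fiber _).mem_nhds rfl)
    filter_upwards [key, hloc'] with z hz1 hz2
    rw [hz1, key.self_of_nhds]
    refine finsum_congr fun i => ?_
    rw [fibreIntegral_preimage hc w (V i) z, fibreIntegral_preimage hc w (V i) y', hz2 i]
  · intro x hx
    constructor
    · intro hxU
      exact ⟨⟨h x, x, hxU, hx, rfl⟩, hV _⟩
    · rintro ⟨i, hi⟩
      obtain ⟨x', hx', hxy', hxi⟩ := i.2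
      have h1 : x = x' := by
        refine (hVu' i).eq hi ?_ hx hxy'
        change h x' ∈ V i
        rw [hxi]
        exact hV i
      rw [h1]
      exact hx'
  · intro x i j hx hi hj
    have h1 : f (h x) = g y' := by rw [hcw, hx]
    exact Subtype.ext ((huniq i (h x) hi h1).symm.trans (huniq j (h x) hj h1))

/-- Flexible form of the base change of weightings. -/
theorem isLocallyConstant_baseChange {X' Y' : Scheme.{u}} {f : X ⟶ Y} {f' : X' ⟶ Y'} {h : X' ⟶ X}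
    {g : Y' ⟶ Y} (hc : IsPullback h f' f g) [LocallyQuasiFinite f] [LocallyOfFiniteType f] {w : X → ℤ}
    (hw : MoreMor.IsWeighting f w) (U : X'.Opens) [IsFinite (U.ι ≫ f')] :
    IsLocallyConstant (MoreMor.fibreIntegral (U.ι ≫ f') (fun x => w (h (U.ι x)))) := by
  rw [IsLocallyConstant.iff_eventually_eq]
  intro y'
  have hlq : LocallyQuasiFinite f' := MorphismProperty.of_isPullback hc ‹_›
  have hcw : ∀ x', f (h x') = g (f' x') := by
    intro z
    rw [← Scheme.Hom.comp_apply, hc.w, Scheme.Hom.comp_apply]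
  -- étale localization over `Y`
  have hA : {x : X | ∃ x' ∈ U, f' x' = y' ∧ h x' = x}.Finite := by
    have h1 : ((U.ι ≫ f') ⁻¹' {y'}).Finite := (U.ι ≫ f').finite_preimage_singleton _
    refine (h1.image fun x => h (U.ι x)).subset ?_
    rintro _ ⟨x', hx', hxy, rfl⟩
    exact ⟨⟨x', hx'⟩, hxy, rfl⟩
  obtain ⟨V, a, v, ha, hav, H⟩ := exists_splitOver f (g y') _ hA (by
    rintro _ ⟨x', hx', hxy, rfl⟩
    rw [hcw, hxy])
  obtain ⟨t, ht1, ht2⟩ := Scheme.Pullback.exists_preimage_pullback (f := g) (g := a) y' v hav.symm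
  -- the base change to `T = Y' ×_Y V`
  let T := pullback g a
  let b : T ⟶ Y' := pullback.fst g a
  let c : T ⟶ V := pullback.snd g a
  have hbe : Etale b := inferInstance
  let X'' := pullback f' b
  let h'' : X'' ⟶ X' := pullback.fst f' b
  let f'' : X'' ⟶ T := pullback.snd f' b
  have hc1 : IsPullback h'' f'' f' b := IsPullback.of_hasPullback f' b
  have hc2 : IsPullback (h'' ≫ h) f'' f (c ≫ a) := by
    have := hc1.paste_horiz hc
    rwa [show b ≫ g = c ≫ a from pullback.condition] at this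
  have hc3 := IsPullback.of_hasPullback f a
  let m : X'' ⟶ pullback f a := hc3.lift (h'' ≫ h) (f'' ≫ c) (by rw [hc2.w, Category.assoc])
  have hm1 : m ≫ pullback.fst f a = h'' ≫ h := hc3.lift_fst _ _ _
  have hm : IsPullback m f'' (pullback.snd f a) c := by
    refine IsPullback.of_right ?_ (hc3.lift_snd _ _ _) hc3
    rw [hm1]
    exact hc2
  have hwV : MoreMor.IsWeighting (pullback.snd f a) (fun x => w (pullback.fst f a x)) :=
    isWeighting_of_isPullback hc3 hw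
  have hUf : IsFinite ((h'' ⁻¹ᵁ U).ι ≫ f'') := isFinite_baseChange_ι hc1 U
  have key := eventually_eq_of_split hm hwV (h'' ⁻¹ᵁ U) t ?_
  · have h1 : ∀ z : T, MoreMor.fibreIntegral ((h'' ⁻¹ᵁ U).ι ≫ f'')
        (fun x => w (pullback.fst f a (m ((h'' ⁻¹ᵁ U).ι x)))) z =
        MoreMor.fibreIntegral (U.ι ≫ f') (fun x => w (h (U.ι x))) (b z) := by
      intro z
      rw [← fibreIntegral_preimage hc1 (fun x => w (h x)) U z]
      congr 1
      ext u
      rw [← Scheme.Hom.comp_apply m, hm1, Scheme.Hom.comp_apply]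
    simp only [h1] at key
    have h2 : (∀ᶠ z in 𝓝 t, (fun y => MoreMor.fibreIntegral (U.ι ≫ f') (fun x => w (h (U.ι x))) y =
      MoreMor.fibreIntegral (U.ι ≫ f') (fun x => w (h (U.ι x))) y') (b z)) := by
      filter_upwards [key] with z hz
      rw [hz, show b t = y' from ht1]
    have h3 : 𝓝 (b t) ≤ Filter.map b (𝓝 t) := b.isOpenMap.nhds_le t
    rw [show b t = y' from ht1] at h3
    exact h3 h2
  · intro x'' hx'' hxt
    refine H _ ?_ ?_
    · refine ⟨h'' x'', hx'', ?_, ?_⟩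
      · rw [← Scheme.Hom.comp_apply, hc1.w, Scheme.Hom.comp_apply, hxt]
        exact ht1
      · rw [← Scheme.Hom.comp_apply, ← Scheme.Hom.comp_apply, hm1]
    · rw [← Scheme.Hom.comp_apply, hm.w, Scheme.Hom.comp_apply, hxt]
      exact ht2

/-- The pullback of a weighting along an arbitrary base change is a weighting. -/
theorem isWeighting_baseChange {X' Y' : Scheme.{u}} {f : X ⟶ Y} {f' : X' ⟶ Y'} {h : X' ⟶ X}
    {g : Y' ⟶ Y} (hc : IsPullback h f' f g) [LocallyQuasiFinite f] [LocallyOfFiniteType f] {w : X → ℤ}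
    (hw : MoreMor.IsWeighting f w) : MoreMor.IsWeighting f' (fun x => w (h x)) := by
  intro V g' _ U hU
  exact isLocallyConstant_baseChange ((IsPullback.of_hasPullback f' g').paste_horiz hc) hw U

end Groth.Agent.Old.H13.WeightBC
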